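import Cfsg.Agent.XP.Ker

set_option autoImplicit false
set_option linter.unusedSectionVars false

namespace Cfsg.Agent.XP

open Cfsg Cfsg.Geo Cfsg.Agent.H98 Cfsg.Agent.H99 Matrix
open Cfsg.Agent.N9 (pm dg On pm_apply dg_apply coe_dg pm_dg conj_pm mul_pm_apply pm_mul_apply dg_const)

variable {F : Type*} [Field F] [Fintype F] {ι : Type} [Fintype ι] [DecidableEq ι] {p : ℕ} {ζ : Fˣ}
  {w g : GL I F} {G : Subgroup (GL I F)} {e : ι → I} {v : GL ι F} {Γ K Q P : Subgroup (GL ι F)}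

namespace D0

theorem mul_eq (t u : I → Fˣ) (π ρ : Equiv.Perm I) :
    dg t * pm F π * (dg u * pm F ρ) = dg (t * fun i => u (π⁻¹ i)) * pm F (π * ρ) := by
  rw [map_mul, map_mul, ← pm_dg]; group

theorem conj_eq (t : I → Fˣ) (α π : Equiv.Perm I) :
    pm F α * (dg t * pm F π) * (pm F α)⁻¹ = dg (fun i => t (α⁻¹ i)) * pm F (α * π * α⁻¹) := by
  rw [map_mul, map_mul, map_inv, ← pm_dg]; group

theorem tor (h : St p ζ w G) {t : I → Fˣ} (ht : dg t ∈ G) (i k : I) : t i ^ 11 = t k ^ 11 := by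
  have := h.tor t ht
  rw [← map_pow, dg_mem_scalars] at this
  exact this i k

theorem cj {t : I → Fˣ} {π : Equiv.Perm I} (ht : ∀ i, t (-i) = t i) (hπ : ∀ i, π (-i) = -π i) :
    dg t * pm F π * jj F = jj F * (dg t * pm F π) :=
  comm_jj.2 fun i k => by simp only [dg_pm_apply, ht, hπ, neg_inj]

/-- the class of an index up to sign -/
def ix : I → Fin 5 := fun i => if i = 2 ∨ i = -2 then 1 else if i = 3 ∨ i = -3 then 2 else
  if i = 4 ∨ i = -4 then 3 else if i = 5 ∨ i = -5 then 4 else 0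

/-- multiplication by `6 = 2⁻¹` on the classes -/
def rt (k : Fin 5) : Fin 5 := ix (6 * sm k)

theorem ix_neg : ∀ i, ix (-i) = ix i := by decide +kernel

theorem ix_sm : ∀ i : I, i = 0 ∨ i = sm (ix i) ∨ i = -sm (ix i) := by decide +kernel

theorem ix_rt : ∀ i : I, i = 0 ∨ ix (6 * i) = rt (ix i) := by decide +kernel

theorem sm_ne : ∀ k, -sm k ≠ sm k := by decide +kernel

variable (G) in
/-- the sign pattern `s` occurs in `G` -/
def Pt (s : Fin 5 → Bool) : Prop :=
  ∃ (t : I → Fˣ) (π : Equiv.Perm I), (∀ i, t (-i) = t i) ∧ dg t * pm F π ∈ G ∧ ∀ i, π i = if s (ix i) then -i else i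

theorem Pt.zero : Pt G fun _ => false := ⟨1, 1, fun _ => rfl, by simp, fun _ => rfl⟩

theorem Pt.one (h : St p ζ w G) : Pt G fun _ => true :=
  ⟨1, Equiv.neg I, fun _ => rfl, by rw [map_one, one_mul]; exact h.j, fun _ => rfl⟩

theorem inv_apply {π : Equiv.Perm I} {s : Fin 5 → Bool} (h : ∀ i, π i = if s (ix i) then -i else i) (i : I) :
    π⁻¹ i = π i := by
  rw [Equiv.Perm.inv_eq_iff_eq, h, h]
  by_cases c : s (ix i) = true <;> simp [c, ix_neg]

theorem Pt.xor {s s' : Fin 5 → Bool} (a : Pt G s) (b : Pt G s') : Pt G fun k => xor (s k) (s' k) := by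
  obtain ⟨t, π, ht, hg, hπ⟩ := a
  obtain ⟨u, ρ, hu, hg', hρ⟩ := b
  refine ⟨_, _, fun i => ?_, mul_eq t u π ρ ▸ mul_mem hg hg', fun i => ?_⟩
  · simp only [Pi.mul_apply, inv_apply hπ, hπ, ht, ix_neg]
    split_ifs <;> simp [hu]
  · rw [Equiv.Perm.mul_apply, hπ, hρ]
    by_cases c : s (ix i) = true <;> by_cases d : s' (ix i) = true <;> simp [c, d, ix_neg]

theorem Pt.and {s : Fin 5 → Bool} (a : Pt G s) (b : Bool) : Pt G fun k => b && s k := by
  cases b
  · exact Pt.zero
  · exact a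

/-- the unit `2` -/
def u2 : Iˣ := ⟨2, 6, by decide +kernel, by decide +kernel⟩

theorem u2_inv (i : I) : (af u2 0)⁻¹ i = 6 * i := by rw [af_inv_apply, sub_zero]; rfl

theorem u2_app (i : I) : af u2 0 i = 2 * i := by rw [af_apply, add_zero]; rfl

theorem two_six : ∀ i : I, 2 * (6 * i) = i ∧ 2 * -(6 * i) = -i := by decide +kernel

theorem Pt.rot (h : St p ζ w G) {s : Fin 5 → Bool} (a : Pt G s) : Pt G fun k => s (rt k) := by
  obtain ⟨t, π, ht, hg, hπ⟩ := a
  refine ⟨_, _, fun i => ?_, conj_eq t (af u2 0) π ▸ mul_mem (mul_mem (h.am _ _) hg) (inv_mem (h.am _ _)), fun i => ?_⟩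
  · rw [u2_inv, u2_inv, mul_neg, ht]
  · rw [Equiv.Perm.mul_apply, Equiv.Perm.mul_apply, u2_inv, hπ, u2_app]
    rcases ix_rt i with rfl | c
    · simp
    · rw [c]
      split_ifs
      exacts [(two_six i).2, (two_six i).1]

theorem span : ∀ s : Fin 5 → Bool, (∀ k, s k = false) ∨ (∀ k, s k = true) ∨ ∃ a b c d e : Bool, ∀ k,
    xor (xor (xor (xor (a && s k) (b && s (rt k))) (c && s (rt (rt k)))) (d && s (rt (rt (rt k))))) (e && true) =
      decide (k = 0) := by
  decide +kernel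

theorem ix_zero : ∀ i : I, (if decide (ix i = 0) = true then -i else i) = Equiv.swap (1 : I) (-1) i := by
  decide +kernel

theorem exists_fix : ∀ y : I, ∃ i : I, i ≠ 1 ∧ i ≠ -1 ∧ i ≠ y ∧ i ≠ 0 := by decide +kernel

theorem sq11 {M : Type*} [Monoid M] {x : M} (h : x * x = 1) : x ^ 11 = x := by
  rw [show 11 = 2 * 5 + 1 from rfl, pow_succ, pow_mul, pow_two, h, one_pow, one_mul]

theorem sw_neg : ∀ i : I, Equiv.swap (1 : I) (-1) (-i) = -Equiv.swap (1 : I) (-1) i := by decide +kernel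

theorem sw_pm : ∀ i : I, Equiv.swap (1 : I) (-1) i = i ∨ Equiv.swap (1 : I) (-1) i = -i := by decide +kernel

/-- a transposition with signs -/
theorem signs (h : St p ζ w G) {u : I → Fˣ} (hu : ∀ i, u (-i) = u i) (hg : dg u * pm F (Equiv.swap 1 (-1)) ∈ G) :
    ∃ n : I → Fˣ, (∀ i, n (-i) = n i) ∧ (∀ i, n i * n i = 1) ∧ n 0 = 1 ∧ dg n * pm F (Equiv.swap 1 (-1)) ∈ G := by
  have e2 : dg u * pm F (Equiv.swap 1 (-1)) * (dg u * pm F (Equiv.swap 1 (-1))) = dg (u * u) := by
    rw [mul_eq, Equiv.swap_mul_self, map_one, mul_one, Equiv.swap_inv]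
    congr 2
    ext i
    rcases sw_pm i with c | c <;> rw [c]
    rw [hu]
  have m2 : dg (u * u) ∈ G := e2 ▸ mul_mem hg hg
  refine ⟨fun i => u i ^ 11 / u 0 ^ 11, fun i => by simp only [hu], fun i => ?_, div_self' _, ?_⟩
  · have := tor h m2 i 0
    simp only [Pi.mul_apply, mul_pow] at this
    rw [div_mul_div_comm, this, div_self']
  · have : (fun i => u i ^ 11 / u 0 ^ 11) = (fun _ => (u 0 ^ 11)⁻¹) * (u * u) ^ 5 * u := by
      ext i
      simp only [Pi.mul_apply, Pi.pow_apply, div_eq_mul_inv]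
      congr 1
      rw [mul_comm, mul_assoc, ← pow_two, ← pow_mul, ← pow_succ]
    rw [this, map_mul, map_mul, map_pow, dg_const, mul_assoc]
    exact mul_mem (mul_mem (h.sc (scal_mem _)) (pow_mem m2 _)) hg

theorem const (h : St p ζ w G) {n : I → Fˣ} (h2 : ∀ i, n i * n i = 1) (hg : dg n * pm F (Equiv.swap 1 (-1)) ∈ G)
    {y : I} (y1 : y ≠ 1) (y2 : y ≠ -1) : n y = n 0 := by
  by_cases y0 : y = 0
  · rw [y0]
  obtain ⟨c, k, a1, a2⟩ := exists_af (a := 1) (b := -1) (by decide +kernel) y0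
  have hg' := mul_mem (mul_mem (h.am c k) hg) (inv_mem (h.am c k))
  rw [conj_eq, ← Equiv.swap_apply_apply, a1, a2] at hg'
  set m : I → Fˣ := fun i => n ((af c k)⁻¹ i) with hm
  have m2 : ∀ i, m i * m i = 1 := fun i => h2 _
  clear_value m
  have cm : Equiv.swap y 0 * Equiv.swap (1 : I) (-1) = Equiv.swap 1 (-1) * Equiv.swap y 0 := by
    rw [← mul_inv_eq_iff_eq_mul, ← Equiv.swap_apply_apply, Equiv.swap_apply_of_ne_of_ne y1.symm (by decide +kernel),
      Equiv.swap_apply_of_ne_of_ne y2.symm (by decide +kernel)]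
  have A := mul_mem hg hg'
  have B := mul_mem hg' hg
  rw [mul_eq] at A B
  rw [cm] at B
  have C := mul_mem A (inv_mem B)
  rw [_root_.mul_inv_rev, mul_assoc, mul_inv_cancel_left, ← map_inv, ← map_mul] at C
  obtain ⟨i, i1, i2, i3, i4⟩ := exists_fix y
  have T := tor h C i 0
  simp only [Pi.mul_apply, Pi.inv_apply, Equiv.swap_inv, Equiv.swap_apply_of_ne_of_ne i1 i2,
    Equiv.swap_apply_of_ne_of_ne i3 i4, Equiv.swap_apply_right,
    Equiv.swap_apply_of_ne_of_ne (show (0 : I) ≠ 1 by decide +kernel) (show (0 : I) ≠ -1 by decide +kernel),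
    mul_pow, inv_pow, sq11 (h2 _), sq11 (m2 _)] at T
  rw [mul_comm (m i), mul_inv_cancel, eq_comm, mul_inv_eq_one, mul_comm] at T
  exact (mul_left_cancel T).symm

theorem sp_ne : ∀ k : Fin 6, sp k = 1 ∨ (sp k ≠ 1 ∧ sp k ≠ -1) := by decide +kernel

theorem sm_ne' : ∀ k : Fin 5, (sm k = 1 ∧ Equiv.swap (1 : I) (-1) (sm k) ≠ sm k) ∨
    (sm k ≠ 1 ∧ sm k ≠ -1 ∧ Equiv.swap (1 : I) (-1) (sm k) = sm k) := by decide +kernel

theorem single (h : St p ζ w G) : ¬ Pt G fun k => decide (k = 0) := by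
  rintro ⟨u, π, hu, hg, hπ⟩
  obtain rfl : π = Equiv.swap 1 (-1) := Equiv.ext fun i => (hπ i).trans (ix_zero i)
  obtain ⟨n, hn, h2, n0, hg⟩ := signs h hu hg
  have c1 : ∀ y, y ≠ 1 → y ≠ -1 → n y = 1 := fun y y1 y2 => (const h h2 hg y1 y2).trans n0
  have c := cj (F := F) hn sw_neg
  obtain ⟨-, om, op⟩ := on_mono sw_pm c
  have s0 : S0 (dg n * pm F (Equiv.swap 1 (-1))) := by
    rcases (show n 1 = 1 ∨ n 1 = -1 by
      rcases mul_self_eq_one_iff.1 (congrArg Units.val (h2 1)) with e | e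
      exacts [Or.inl (Units.ext e), Or.inr (Units.ext e)]) with e | e
    · refine h.kp hg c (d := 1) ?_
      rw [← dg_const]
      convert op using 3 with k
      rcases sp_ne k with a | ⟨a, b⟩
      · rw [a, e]
      · rw [c1 _ a b]
    · refine h.km hg c (d := 1) ?_
      rw [← dg_const]
      convert om using 3 with k
      rcases sm_ne' k with ⟨a, b⟩ | ⟨a, b, d⟩
      · rw [if_neg b, a, e, neg_neg]
      · rw [if_pos d, c1 _ a b]
  rcases s0 with s | s <;> obtain ⟨z, hz⟩ := mem_scalars_iff'.1 s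
  · have := congrArg (fun g : GL I F => (g : Matrix I I F) 1 (-1)) hz
    simp only [dg_pm_apply, Equiv.swap_apply_right, if_true, coe_scal, Matrix.smul_apply,
      one_apply_ne (show (1 : I) ≠ -1 by decide +kernel), smul_zero] at this
    exact (n 1).ne_zero this
  · have := congrArg (fun g : GL I F => (g : Matrix I I F) 2 (-2)) hz
    simp only [jj, mul_assoc, ← map_mul, dg_pm_apply, coe_scal, Matrix.smul_apply,
      one_apply_ne (show (2 : I) ≠ -2 by decide +kernel), smul_zero] at this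
    rw [if_pos (by decide +kernel)] at this
    exact (n 2).ne_zero this

end D0

theorem St.full (h : St p ζ w G) (hg : g ∈ G) (c : g * jj F = jj F * g) (ca : g * aa ζ = aa ζ * g) :
    (∃ t, g = dg t) ∨ ∃ t, g * jj F = dg t := by
  obtain ⟨t, π, hπ, rfl⟩ := h.blk hg ca
  have ht := (on_mono hπ c).1
  have hn : ∀ i, π (-i) = -π i := fun i => by
    rcases hπ i with a | a <;> rcases hπ (-i) with b | b
    · rw [a, b]
    · rw [neg_neg] at b
      rw [π.injective (b.trans a.symm), a]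
      exact (π.injective (b.trans a.symm)).symm
    · rw [π.injective (b.trans a.symm), a, neg_neg]
      exact π.injective (b.trans a.symm)
    · rw [a, b]
  have hs : ∀ i, π i = if (fun k => decide (π (sm k) ≠ sm k)) (D0.ix i) then -i else i := fun i => by
    rcases D0.ix_sm i with a | a | a
    · subst a
      rcases hπ 0 with b | b <;> simp [b]
    · simp only [← a, decide_eq_true_eq]
      split_ifs with d
      exacts [(hπ i).resolve_left d, not_not.1 d]
    · have a' : sm (D0.ix i) = -i := by rw [← neg_neg (sm _), ← a]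
      simp only [a', hn, decide_eq_true_eq, Ne, neg_inj]
      split_ifs with d
      exacts [d, (hπ i).resolve_left d]
  have pt : D0.Pt G fun k => decide (π (sm k) ≠ sm k) := ⟨t, π, ht, hg, hs⟩
  generalize (fun k => decide (π (sm k) ≠ sm k)) = s at hs pt
  rcases D0.span s with a | a | ⟨a, b, c', d, e, k⟩
  · obtain rfl : π = 1 := Equiv.ext fun i => by rw [hs, a]; rfl
    exact Or.inl ⟨t, by rw [map_one, mul_one]⟩
  · obtain rfl : π = Equiv.neg I := Equiv.ext fun i => by rw [hs, a]; rfl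
    exact Or.inr ⟨t, by rw [mul_assoc, ← jj, jj_jj, mul_one]⟩
  · refine absurd ?_ (D0.single h)
    rw [← funext k]
    exact ((((pt.and a).xor ((pt.rot h).and b)).xor (((pt.rot h).rot h).and c')).xor
      ((((pt.rot h).rot h).rot h).and d)).xor ((D0.Pt.one h).and e)

theorem St.d11 (h : St p ζ w G) : D11 (Gr (Jm F) G) := by
  rintro t ⟨g, hg, c, o⟩
  have cg : Commute g (jj F) := c
  have ca : Commute (aa ζ) (jj F) := aa_jj ζ
  have oy := ((o.mul (on_a_m (ζ := ζ))).mul o.inv).mul (on_a_m (ζ := ζ)).inv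
  rw [ad, dg_comm t, mul_inv_cancel_right, mul_inv_cancel, ← scal_one] at oy
  have ga : g * aa ζ = aa ζ * g := by
    rcases h.km (mul_mem (mul_mem (mul_mem hg h.a) (inv_mem hg)) (inv_mem h.a))
      (((cg.mul_left ca).mul_left cg.inv_left).mul_left ca.inv_left) oy with s | s <;>
      obtain ⟨z, hz⟩ := mem_scalars_iff'.1 s
    · rw [hz] at oy
      rw [scal_injective ((On.scal z).unique Km_Jm oy), scal_one, mul_inv_eq_one, mul_inv_eq_iff_eq_mul] at hz
      exact hz
    · exfalso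
      have e : g * aa ζ * g⁻¹ = scal I z * (jj F * aa ζ) := by
        rw [← hz, mul_assoc _ (jj F), ← mul_assoc (jj F), jj_jj, one_mul, inv_mul_cancel_right]
      have e' := congrArg (· ^ 11) e
      have a11 : aa ζ ^ 11 = 1 := h.ad_pow11 _
      simp only [conj_pow, a11, mul_one, mul_inv_cancel] at e'
      rw [Commute.mul_pow (scal_comm _ _), ca.symm.mul_pow, a11, mul_one, D0.sq11 jj_jj, eq_comm,
        mul_eq_one_iff_eq_inv'] at e'
      exact jj_notMem (e' ▸ inv_mem (pow_mem (scal_mem z) _))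
  rcases h.full hg c ga with ⟨u, rfl⟩ | ⟨u, e⟩
  · obtain ⟨z, hz⟩ := mem_scalars_iff'.1 (h.tor u hg)
    have o' := o.pow 11
    rw [hz] at o'
    rw [o'.unique Km_Jm (On.scal z)]
    exact scal_mem z
  · obtain ⟨z, hz⟩ := mem_scalars_iff'.1 (h.tor u (e ▸ mul_mem hg h.j))
    have o' := (o.mul on_j_m).pow 11
    rw [e, hz] at o'
    have := o'.unique Km_Jm (On.scal z)
    rw [Commute.mul_pow (scal_comm _ _).symm, ← eq_mul_inv_iff_mul_eq] at this
    rw [this]
    exact mul_mem (scal_mem z) (inv_mem (pow_mem (scal_mem _) _))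

end Cfsg.Agent.XP
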