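import Cfsg.Agent.XP.Defs
import Cfsg.Agent.H28.Dickson
import Cfsg.Agent.H28.Pgl2Trace

set_option autoImplicit false
set_option linter.unusedSectionVars false

namespace Cfsg.Agent.XP

open Cfsg Cfsg.Geo Cfsg.Agent.H98 Cfsg.Agent.H99 Matrix
open Cfsg.Agent.N9 (pm dg On pm_apply dg_apply coe_dg pm_dg conj_pm mul_pm_apply pm_mul_apply dg_const)

variable {F : Type*} [Field F] [Fintype F] {ι : Type} [Fintype ι] [DecidableEq ι] {p : ℕ} {ζ : Fˣ}
  {w g : GL I F} {G : Subgroup (GL I F)} {e : ι → I} {v : GL ι F} {Γ K Q P : Subgroup (GL ι F)}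

namespace DK

open Matrix.ProjGenLinGroup Polynomial
open scoped MatrixGroups commutatorElement

/-- the degree over a subfield is odd -/
theorem odd_rank (h : Fd F p ζ) (L : Subfield F) : Odd (Module.finrank L F) := by
  classical
  by_contra c
  obtain ⟨k, hk⟩ := Nat.not_odd_iff_even.1 c
  have e := Module.card_eq_pow_finrank (K := L) (V := F)
  rw [hk, pow_add] at e
  have h0 : Fintype.card L ^ k ≠ 0 := pow_ne_zero _ Fintype.card_ne_zero
  have e' := congrArg (fun n => n.factorization p) e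
  simp only [Nat.factorization_mul h0 h0, Finsupp.add_apply] at e'
  rcases h.card with c | c <;> rw [c] at e'
  · rw [h.prime.factorization_self] at e'; omega
  · rw [Nat.factorization_pow, Finsupp.smul_apply, h.prime.factorization_self, smul_eq_mul] at e'; omega

theorem sub_top (h : Fd F p ζ) {m : I} (hm : m ≠ 0) (L : Subfield F)
    (hs : (ze ζ m : F) + (ze ζ m : F)⁻¹ ∈ L) : L = ⊤ := by
  have hi : IsIntegral L (ze ζ m : F) := Algebra.IsIntegral.isIntegral _
  have h1 := minpoly.degree_dvd hi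
  have h2 : (minpoly L (ze ζ m : F)).natDegree ≤ 2 := by
    have hd : (X ^ 2 - C (⟨_, hs⟩ : L) * X + 1 : L[X]).natDegree = 2 := by compute_degree!
    refine hd ▸ natDegree_le_of_dvd (minpoly.dvd _ _ ?_) fun c => by simp [c] at hd
    simp only [map_add, map_sub, map_mul, map_pow, aeval_X, aeval_C, map_one]
    change _ - ((ze ζ m : F) + (ze ζ m : F)⁻¹) * _ + _ = 0
    field_simp
    ring
  have h3 := minpoly.natDegree_pos hi
  have h4 : (minpoly L (ze ζ m : F)).natDegree ≠ 2 := fun c =>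
    Nat.not_even_iff_odd.2 (odd_rank h L) (even_iff_two_dvd.2 (c ▸ h1))
  obtain ⟨y, hy⟩ := minpoly.natDegree_eq_one_iff.1 (show (minpoly L (ze ζ m : F)).natDegree = 1 by omega)
  refine h.gen L ?_
  have e : ze ζ m ^ (m⁻¹).val = ζ := by
    rw [h.ze_pow, ZMod.natCast_zmod_val, inv_mul_cancel₀ hm, ze_one]
  rw [← e, Units.val_pow_eq_pow_val, ← hy]
  exact pow_mem y.2 _

/-- an element whose conjugate of `dg t` commutes with `dg t` modulo scalars is monomial -/
theorem mono {t : Fin 2 → Fˣ} (h1 : (t 0 : F) ≠ t 1) (h2 : (t 0 : F) ≠ -t 1) {y : GL (Fin 2) F}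
    (c : mk (y * dg t * y⁻¹) * mk (dg t) = mk (dg t) * mk (y * dg t * y⁻¹)) :
    ((y : Matrix (Fin 2) (Fin 2) F) 0 1 = 0 ∧ (y : Matrix (Fin 2) (Fin 2) F) 1 0 = 0) ∨
      ((y : Matrix (Fin 2) (Fin 2) F) 0 0 = 0 ∧ (y : Matrix (Fin 2) (Fin 2) F) 1 1 = 0) := by
  obtain ⟨d, hd⟩ : ∃ d, d = y * dg t * y⁻¹ := ⟨_, rfl⟩
  rw [← hd, ← map_mul, ← map_mul, mk_eq_mk_iff] at c
  obtain ⟨u, c⟩ := c
  have e : ∀ i k, (d : Matrix (Fin 2) (Fin 2) F) i k * t k * u = t i * (d : Matrix (Fin 2) (Fin 2) F) i k :=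
    fun i k => by
      rw [← mul_dg_apply, ← dg_mul_apply, ← c, Units.val_mul (d * dg t), GeneralLinearGroup.coe_scalar,
        Matrix.scalar_apply, mul_diagonal]
  have t0 := (t 0).ne_zero
  have t1 := (t 1).ne_zero
  have d0 : (d : Matrix (Fin 2) (Fin 2) F) 0 1 = 0 ∧ (d : Matrix (Fin 2) (Fin 2) F) 1 0 = 0 := by
    by_cases hu : (u : F) = 1
    · have e1 := e 0 1
      have e2 := e 1 0
      rw [hu, mul_one, mul_comm] at e1 e2
      exact ⟨by_contra fun c => h1 (mul_right_cancel₀ c e1).symm, by_contra fun c => h1 (mul_right_cancel₀ c e2)⟩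
    · have a0 : (d : Matrix (Fin 2) (Fin 2) F) 0 0 = 0 := by_contra fun c =>
        hu (mul_left_cancel₀ (mul_ne_zero c t0) (by rw [e, mul_one, mul_comm]))
      have hd := H28.gl_det_ne d
      rw [a0, zero_mul, zero_sub, neg_ne_zero, mul_ne_zero_iff] at hd
      have e1 : (t 1 : F) * u = t 0 := mul_left_cancel₀ hd.1 (by rw [← mul_assoc, e, mul_comm])
      have e2 : (t 0 : F) * u = t 1 := mul_left_cancel₀ hd.2 (by rw [← mul_assoc, e, mul_comm])
      exact absurd (sq_eq_sq_iff_eq_or_eq_neg.1 (show (t 0 : F) ^ 2 = t 1 ^ 2 by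
        linear_combination (-(t 0 : F)) * e1 + (t 1 : F) * e2)) (not_or.2 ⟨h1, h2⟩)
  have f : ∀ i k, ((d * y : GL (Fin 2) F) : Matrix (Fin 2) (Fin 2) F) i k =
      (y : Matrix (Fin 2) (Fin 2) F) i k * t k := fun i k => by rw [hd, inv_mul_cancel_right, mul_dg_apply]
  simp only [Units.val_mul, Matrix.mul_apply, Fin.sum_univ_two] at f
  have f0 := f 0 0
  have f1 := f 0 1
  have f2 := f 1 0
  have f3 := f 1 1
  simp only [d0.1, d0.2, zero_mul, add_zero, zero_add] at f0 f1 f2 f3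
  have hy := H28.gl_det_ne y
  have r : ∀ {a b c : F}, c * a = a * t 0 → c * b = b * t 1 → a = 0 ∨ b = 0 := fun {a b c} k0 k1 => by
    by_contra n
    rw [not_or] at n
    exact h1 ((mul_left_cancel₀ n.1 (by rw [← k0, mul_comm]) : (t 0 : F) = c).trans
      (mul_left_cancel₀ n.2 (by rw [← k1, mul_comm])))
  rcases r f0 f1 with a | a <;> rcases r f2 f3 with b | b
  · exact absurd (by rw [a, b]; simp) hy
  · exact Or.inr ⟨a, b⟩
  · exact Or.inl ⟨a, b⟩
  · exact absurd (by rw [a, b]; simp) hy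

theorem comm_et (t : Fin 2 → Fˣ) {i k : Fin 2} (hik : i ≠ k) (c : F) :
    ⁅(dg t : GL (Fin 2) F), et hik c⁆ = et hik (((t i : F) / t k - 1) * c) := by
  rw [commutatorElement_def, mul_inv_eq_iff_eq_mul, mul_inv_eq_iff_eq_mul]
  refine Units.ext (Matrix.ext fun a b => ?_)
  rw [dg_mul_apply, mul_dg_apply, Units.val_mul, coe_et, coe_et, mul_add, mul_one, add_mul, one_mul,
    Matrix.single_mul_single_of_ne _ _ _ _ hik.symm]
  have := (t k).ne_zero
  simp only [Matrix.add_apply, Matrix.one_apply, Matrix.single_apply, Matrix.zero_apply]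
  by_cases c1 : a = b
  · subst c1
    rw [if_pos rfl, if_neg (fun c => hik (c.1.trans c.2.symm)), if_neg (fun c => hik (c.1.trans c.2.symm))]
    ring
  · rw [if_neg c1]
    split_ifs with c2
    · rw [← c2.1, ← c2.2]; field_simp; ring
    · ring

end DK

open DK Matrix.ProjGenLinGroup H28 OnePoint
open scoped MatrixGroups commutatorElement

theorem Fd.dk2 (h : Fd F p ζ) {Δ : Subgroup (GL (Fin 2) F)} {t : Fin 2 → Fˣ} {m : I} (hm : m ≠ 0) (ht : dg t ∈ Δ)
    (htm : t 0 = ze ζ m * t 1) (h1 : ∃ y ∈ Δ, (y : Matrix (Fin 2) (Fin 2) F) 1 0 ≠ 0)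
    (h2 : ∃ y ∈ Δ, (y : Matrix (Fin 2) (Fin 2) F) 0 1 ≠ 0)
    (h3 : ∃ y ∈ Δ, ¬ ((y : Matrix (Fin 2) (Fin 2) F) 0 1 = 0 ∧ (y : Matrix (Fin 2) (Fin 2) F) 1 0 = 0) ∧
      ¬ ((y : Matrix (Fin 2) (Fin 2) F) 0 0 = 0 ∧ (y : Matrix (Fin 2) (Fin 2) F) 1 1 = 0)) :
    specialLinear (Fin 2) F ≤ ⁅Δ, Δ⁆ := by
  classical
  have := h.char
  have : Fact p.Prime := ⟨h.prime⟩
  have : Finite (Δ.map ProjGenLinGroup.mk) := Finite.of_surjective _ ((ProjGenLinGroup.mk : GL (Fin 2) F →* _).subgroupMap_surjective Δ)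
  have t1 := (t 1).ne_zero
  have e0 : (t 0 : F) = ze ζ m * t 1 := by rw [htm, Units.val_mul]
  have n1 : (t 0 : F) ≠ t 1 := fun c => hm (h.ze_eq_one.1 (Units.ext
    (mul_right_cancel₀ t1 (by rw [← e0, c, Units.val_one, one_mul]))))
  have n2 : (t 0 : F) ≠ -t 1 := fun c => h.ze_ne_neg m (mul_right_cancel₀ t1 (by rw [← e0, c, neg_one_mul]))
  obtain ⟨d, hd⟩ : ∃ d : Δ.map ProjGenLinGroup.mk, d = ⟨ProjGenLinGroup.mk (dg t), _, ht, rfl⟩ := ⟨_, rfl⟩
  have d11 : d ^ 11 = 1 := Subtype.ext (by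
    rw [hd]
    change ProjGenLinGroup.mk (dg t) ^ 11 = 1
    rw [← map_pow, ← map_pow, pgl_mk_eq_one_iff]
    simp only [dg_apply, Pi.pow_apply, htm, mul_pow, h.ze_pow11]
    simp)
  have d1 : d ≠ 1 := fun c => n1 (by
    have : ProjGenLinGroup.mk (dg t) = 1 := by rw [hd] at c; exact congrArg Subtype.val c
    simpa [dg_apply] using (pgl_mk_eq_one_iff.1 this).2.2)
  have dv : 11 ∣ Nat.card (Δ.map ProjGenLinGroup.mk) := orderOf_eq_prime d11 d1 ▸ orderOf_dvd_natCard d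
  have cm : (∀ y : Δ.map ProjGenLinGroup.mk, y * d * y⁻¹ * d = d * (y * d * y⁻¹)) → False := fun c => by
    obtain ⟨y, hy, k⟩ := h3
    have := congrArg Subtype.val (c ⟨_, y, hy, rfl⟩)
    rw [hd] at this
    exact not_or.2 k (mono n1 n2 (by rw [map_mul, map_mul, map_inv]; exact this))
  rcases pgl2_dickson' p (Δ.map ProjGenLinGroup.mk).subtype (Subgroup.subtype_injective _) with
    ⟨x, hx⟩ | ⟨c, -⟩ | ⟨c, -, hc, -⟩ | ⟨-, ⟨⟨e⟩⟩ | ⟨⟨e⟩⟩ | ⟨⟨e⟩⟩⟩ | ⟨-, ⟨e⟩⟩ | ⟨s, L, -, hL⟩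
  · exfalso
    have hx' : ∀ y ∈ Δ, y • x = x := fun y hy => hx ⟨_, y, hy, rfl⟩
    cases x with
    | infty =>
      obtain ⟨y, hy, k⟩ := h1
      exact k (smul_infty_eq_self_iff.1 (hx' y hy))
    | coe x =>
      obtain ⟨y, hy, k⟩ := h2
      have a := hx' _ ht
      have b := hx' y hy
      rw [smul_some_eq_ite] at a b
      simp only [dg_apply, Fin.isValue, one_ne_zero, zero_ne_one, if_true, if_false, zero_mul, zero_add, add_zero,
        t1, coe_eq_coe, div_eq_iff t1] at a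
      obtain rfl : x = 0 := by_contra fun c => n1 (mul_right_cancel₀ c (a.trans (mul_comm _ _)))
      split_ifs at b with c
      · exact infty_ne_coe _ b
      · simp only [mul_zero, zero_add, coe_eq_coe, div_eq_zero_iff] at b c
        exact b.elim k c
  · exact (cm fun y => mul_comm' _ _).elim
  · have k : ∀ {u : Δ.map ProjGenLinGroup.mk}, u ^ 11 = 1 → u ∈ Subgroup.zpowers c := fun {u} hu => by
      have := Subgroup.mul_self_mem_of_index_two hc (u ^ 6)
      rwa [← pow_add, show 6 + 6 = 11 + 1 from rfl, pow_succ, hu, one_mul] at this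
    refine (cm fun y => ?_).elim
    obtain ⟨a, ha⟩ := k d11
    obtain ⟨b, hb⟩ := k (u := y * d * y⁻¹) (by rw [conj_pow, d11, mul_one, mul_inv_cancel])
    rw [← hb, ← ha]
    exact zpow_mul_comm _ _ _
  · rw [Nat.card_congr e.toEquiv, card_alt4] at dv; omega
  · rw [Nat.card_congr e.toEquiv, card_sym4] at dv; omega
  · rw [Nat.card_congr e.toEquiv, card_alt5] at dv; omega
  · rw [Nat.card_congr e.toEquiv, card_alt5] at dv; omega
  rw [Subgroup.range_subtype] at hL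
  have k1 : ProjGenLinGroup.mk (dg t) ∈ (subPGL L).map (MulAut.conj s).toMonoidHom := by
    have : ProjGenLinGroup.mk (dg t) ∈ Δ.map ProjGenLinGroup.mk := ⟨_, ht, rfl⟩
    rcases hL with e | ⟨-, e⟩ <;> rw [e] at this
    exacts [this, Subgroup.map_mono (subPSL_le L) this]
  have k2 := gtr_sq_div_mem k1
  obtain rfl : L = ⊤ := sub_top h hm L (by
    have z := (ze ζ m).ne_zero
    convert sub_mem k2 (add_mem (one_mem L) (one_mem L)) using 1
    simp only [gtr, gdet, dg_apply, Fin.isValue, one_ne_zero, zero_ne_one, if_true, if_false, e0]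
    field_simp
    ring)
  have k3 : pslIn F ≤ Δ.map ProjGenLinGroup.mk := by
    have := pslIn_normal (F := F)
    have k : pslIn F ≤ (pslIn F).map (MulAut.conj s).toMonoidHom := fun g hg =>
      ⟨s⁻¹ * g * s⁻¹⁻¹, this.conj_mem g hg _, by simp [mul_assoc]⟩
    rcases hL with e | ⟨-, e⟩ <;> rw [e]
    · rw [subPGL_top]; exact k.trans (Subgroup.map_mono le_top)
    · rwa [subPSL_top]
  refine sl_le_of_et fun i k hik c => ?_
  have n3 : (t i : F) / t k - 1 ≠ 0 := by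
    rw [sub_ne_zero, Ne, div_eq_one_iff_eq (t k).ne_zero]
    fin_cases i <;> fin_cases k
    exacts [absurd rfl hik, n1, n1.symm, absurd rfl hik]
  obtain ⟨y, hy, e⟩ := k3 (⟨SpecialLinearGroup.transvection hik (c / ((t i : F) / t k - 1)), rfl⟩ :
    ProjGenLinGroup.mk (SpecialLinearGroup.toGL _) ∈ pslIn F)
  rw [toGL_transvection, mk_eq_mk_iff'] at e
  obtain ⟨z, hz, e⟩ := e
  have k4 := comm_et t hik (c / ((t i : F) / t k - 1))
  rw [mul_div_cancel₀ _ n3, ← e] at k4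
  rw [← k4, show ⁅(dg t : GL (Fin 2) F), y * z⁆ = ⁅(dg t : GL (Fin 2) F), y⁆ by
    rw [commutatorElement_def, commutatorElement_def, ← mul_assoc, mul_assoc _ z,
      ← Subgroup.mem_center_iff.1 hz]; group]
  exact Subgroup.commutator_mem_commutator ht hy

end Cfsg.Agent.XP
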