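import Cfsg.Agent.XP.DK

set_option autoImplicit false
set_option linter.unusedSectionVars false

namespace Cfsg.Agent.XP

open Cfsg Cfsg.Geo Cfsg.Agent.H98 Cfsg.Agent.H99 Matrix
open Cfsg.Agent.N9 (pm dg On pm_apply dg_apply coe_dg pm_dg conj_pm mul_pm_apply pm_mul_apply dg_const)

variable {F : Type*} [Field F] [Fintype F] {ι : Type} [Fintype ι] [DecidableEq ι] {p : ℕ} {ζ : Fˣ}
  {w g : GL I F} {G : Subgroup (GL I F)} {e : ι → I} {v : GL ι F} {Γ K Q P : Subgroup (GL ι F)}

namespace HH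

def s (i : I) : Fin 2 := if i = 0 then 0 else 1

variable (F) in
def J : Matrix I (Fin 2) F := of fun i a => if s i = a then 1 else 0

variable (F) in
def L : Matrix (Fin 2) I F := of fun a k => if a = s k then (if k = 0 then 1 else 10⁻¹) else 0

theorem LJ (h : (10 : F) ≠ 0) : L F * J F = 1 := Matrix.ext fun a b => by
  rw [Matrix.mul_apply, Fintype.sum_eq_add_sum_compl 0, Finset.sum_congr rfl (g := fun _ => L F a 1 * J F 1 b)
    fun i hi => by simp [L, J, s, show i ≠ 0 by simpa using hi], Finset.sum_const, show ({0}ᶜ : Finset I).card = 10 from rfl]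
  fin_cases a <;> fin_cases b <;> simp [L, J, s, h]

def ε (h : (10 : F) ≠ 0) : GL (Fin 2) F →* GL I F := Units.map
  { toFun := fun A => 1 + J F * (A - 1) * L F
    map_one' := by simp
    map_mul' := fun A B => by
      have k : ∀ Z : Matrix (Fin 2) I F, L F * (J F * Z) = Z := fun Z => by rw [← Matrix.mul_assoc, LJ h, Matrix.one_mul]
      rw [show A * B - 1 = (A - 1) + (B - 1) + (A - 1) * (B - 1) by noncomm_ring]
      simp only [Matrix.mul_add, Matrix.add_mul, Matrix.mul_assoc, Matrix.one_mul, Matrix.mul_one, k, add_assoc] }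

theorem ε_apply (h : (10 : F) ≠ 0) (y : GL (Fin 2) F) (i k : I) : (ε h y : Matrix I I F) i k = (if i = k then 1 else 0) +
    ((y : Matrix (Fin 2) (Fin 2) F) - 1) (s i) (s k) * if k = 0 then 1 else 10⁻¹ := by
  show (1 + J F * ((y : Matrix (Fin 2) (Fin 2) F) - 1) * L F : Matrix I I F) i k = _
  generalize (y : Matrix (Fin 2) (Fin 2) F) - 1 = M
  simp [Matrix.mul_apply, J, L, Matrix.one_apply]

end HH

open HH in
theorem St.hh (h : St p ζ w G) {k : I} {η : Fˣ} (hη : η ^ 11 = 1) (hk : hm k η ∈ G) : η = 1 := by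
  by_contra n1
  have n1' : (η : F) - 1 ≠ 0 := sub_ne_zero.2 fun e => n1 (Units.ext e)
  have h0 := h.hm_mem hk 0
  by_cases p5 : p = 5
  · obtain ⟨c, hc⟩ := h.det _ h0
    rw [hm, coe_dg, det_diagonal, ← Units.coe_prod, Finset.prod_pi_mulSingle', if_pos (Finset.mem_univ _)] at hc
    have c1 : c ^ 121 = 1 := by
      rw [show 121 = 11 * 11 from rfl, pow_mul, ← hc, ← Units.val_pow_eq_pow_val, hη, Units.val_one]
    have c2 := FiniteField.pow_card_sub_one_eq_one c fun e => by simp [e] at c1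
    have c3 : c ^ 3124 = 1 := by
      rcases h.card with e | e <;> rw [e, p5] at c2
      exacts [by rw [show 3124 = (5 - 1) * 781 from rfl, pow_mul, c2, one_pow], c2]
    exact n1' (by rw [hc]; exact sub_eq_zero.2 (pow_gcd_eq_one.2 ⟨c1, c3⟩))
  have ten : (10 : F) ≠ 0 := by
    exact_mod_cast h.cast_ne (n := 10) fun d => ((Nat.Prime.dvd_mul h.prime).1 (show p ∣ 2 * 5 from d)).elim
      (fun d => h.odd ((Nat.prime_dvd_prime_iff_eq h.prime Nat.prime_two).1 d))
      fun d => p5 ((Nat.prime_dvd_prime_iff_eq h.prime Nat.prime_five).1 d)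
  have el := h.eleven_ne
  obtain ⟨m, em⟩ := h.exists_ze hη
  obtain ⟨c, hc⟩ : ∃ c : F, (η : F) = 1 + 11 * c := ⟨(η - 1) / 11, by field_simp; ring⟩
  have c0 : c ≠ 0 := fun e => n1' (by simp [hc, e])
  let y : GL (Fin 2) F := GeneralLinearGroup.mkOfDetNeZero !![1 + c, 10 * c; c, 1 + 10 * c] (by
    rw [det_fin_two_of, show (1 + c) * (1 + 10 * c) - 10 * c * c = η by rw [hc]; ring]; exact η.ne_zero)
  have ey : (y : Matrix (Fin 2) (Fin 2) F) = !![1 + c, 10 * c; c, 1 + 10 * c] := rfl
  have yG : y ∈ G.comap (ε ten) := by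
    have a : ∀ i k, (ε ten y : Matrix I I F) i k = (if i = k then 1 else 0) + c := fun i k => by
      rw [ε_apply, ey]
      by_cases a : i = 0 <;> by_cases b : k = 0 <;> simp [s, a, b] <;> field_simp
    have : ε ten y * w = w * hm 0 η := Units.ext (Matrix.ext fun i k => by
      rw [hm, mul_dg_apply, Units.val_mul, Matrix.mul_apply, h.hw]
      simp only [a, add_mul, ite_mul, one_mul, zero_mul, Finset.sum_add_distrib, Finset.sum_ite_eq, Finset.mem_univ,
        if_true, ← Finset.mul_sum, wM, of_apply, h.sum_ze]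
      by_cases b : k = 0
      · simp [b, ze_zero, hc, mul_comm]
      · simp [b])
    rw [Subgroup.mem_comap, eq_mul_inv_of_mul_eq this]
    exact mul_mem (mul_mem h.wm h0) (inv_mem h.wm)
  have tG : (dg ![η, 1] : GL (Fin 2) F) ∈ G.comap (ε ten) := by
    rw [Subgroup.mem_comap, show ε ten (dg ![η, 1]) = hm 0 η from Units.ext (Matrix.ext fun i k => by
      rw [ε_apply, hm, dg_apply, coe_dg]
      by_cases a : i = 0 <;> by_cases b : k = 0 <;> simp [s, a, b, eq_comm])]
    exact h0
  have τG : ε ten (et (show (0 : Fin 2) ≠ 1 by decide) 1) ∈ G := (Subgroup.commutator_le.2 fun a ha b hb =>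
    mul_mem (mul_mem (mul_mem ha hb) (inv_mem ha)) (inv_mem hb)).trans' (h.dk2
    (Δ := G.comap (ε ten)) (m := m) (fun e => n1 (by rw [em, e, ze_zero])) tG (by simpa using em)
    ⟨y, yG, by simpa [ey] using c0⟩ ⟨y, yG, by simpa [ey] using ⟨ten, c0⟩⟩
    ⟨y, yG, fun e => c0 (by simpa [ey] using e.2), fun e => h.ze_ne_neg m (by
      have e1 : 1 + c = 0 := by simpa [ey] using e.1
      have e2 : 1 + 10 * c = 0 := by simpa [ey] using e.2
      rw [← em, hc]; linear_combination e1 + e2)⟩) (et_mem_sl _ _)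
  generalize hτ : ε ten (et (show (0 : Fin 2) ≠ 1 by decide) 1) = τ at τG
  have a : ∀ i k, (τ : Matrix I I F) i k = (if i = k then 1 else 0) + if i = 0 ∧ k ≠ 0 then 10⁻¹ else 0 := fun i k => by
    rw [← hτ, ε_apply, coe_et]
    by_cases a : i = 0 <;> by_cases b : k = 0 <;> simp [s, a, b]
  have e : τ * et (show (0 : I) ≠ 1 by decide) (((η : F)⁻¹ - 1) / 10) * hm 1 η = hm 1 η * τ :=
    Units.ext (Matrix.ext fun i k => by
      rw [hm, mul_dg_apply, dg_mul_apply, Units.val_mul, coe_et, mul_add, mul_one, Matrix.add_apply]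
      by_cases b : k = 1
      · rw [b, mul_single_apply_same, a, a]
        by_cases c : i = 0
        · simp [c]; field_simp; ring
        · by_cases d : i = 1 <;> simp [c, d]
      · rw [mul_single_apply_of_ne _ _ _ _ _ b, a]
        by_cases c : i = 0
        · simp [c, b]
        · by_cases d : i = k <;> simp [c, d, b])
  have := h.nr 0 1 (by decide) _ (by
    rw [eq_inv_mul_of_mul_eq (eq_mul_inv_of_mul_eq e)]
    have h1 := h.hm_mem hk 1
    exact mul_mem (inv_mem τG) (mul_mem (mul_mem h1 τG) (inv_mem h1)))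
  rw [div_eq_zero_iff, or_iff_left ten, sub_eq_zero, inv_eq_one] at this
  exact n1 (Units.ext this)

end Cfsg.Agent.XP
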