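import Cfsg.Agent.XP.Res
import Cfsg.Agent.XP.Nrm
import Cfsg.Agent.XP.Blk
import Cfsg.Agent.XP.HH

/-! Elements centralising the parity matrix and scalar on one eigenspace. -/

set_option autoImplicit false
set_option linter.unusedSectionVars false

namespace Cfsg.Agent.XP

open Cfsg Cfsg.Geo Cfsg.Agent.H98 Cfsg.Agent.H99 Matrix
open Cfsg.Agent.N9 (pm dg On pm_apply dg_apply coe_dg pm_dg conj_pm mul_pm_apply pm_mul_apply dg_const)

variable {F : Type*} [Field F] [Fintype F] {ι : Type} [Fintype ι] [DecidableEq ι] {p : ℕ} {ζ : Fˣ}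
  {w g : GL I F} {G : Subgroup (GL I F)} {e : ι → I} {v : GL ι F} {Γ K Q P : Subgroup (GL ι F)}

namespace Ker

variable {κ : Type} [Fintype κ] [DecidableEq κ]

/-- The elements induced by elements that are scalar on the other eigenspace. -/
def Kn (J : Matrix I ι F) (J' : Matrix I κ F) (G : Subgroup (GL I F)) : Subgroup (GL ι F) where
  carrier := {γ | ∃ h ∈ G, h * jj F = jj F * h ∧ On J h γ ∧ ∃ d, On J' h (scal κ d)}
  one_mem' := ⟨1, one_mem _, by simp, N9.On.one, 1, by rw [scal_one]; exact N9.On.one⟩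
  mul_mem' := by
    rintro _ _ ⟨a, ha, ca, oa, d, od⟩ ⟨b, hb, cb, ob, d', od'⟩
    exact ⟨a * b, mul_mem ha hb, Commute.mul_left ca cb, oa.mul ob, d * d', by rw [scal_mul]; exact od.mul od'⟩
  inv_mem' := by
    rintro _ ⟨a, ha, ca, oa, d, od⟩
    exact ⟨a⁻¹, inv_mem ha, Commute.inv_left ca, oa.inv, d⁻¹, by rw [scal_inv]; exact od.inv⟩

theorem sc_le {J : Matrix I ι F} {J' : Matrix I κ F} (hs : scalars I F ≤ G) : scalars ι F ≤ Kn J J' G := by
  intro γ hγ
  obtain ⟨c, rfl⟩ := mem_scalars_iff'.1 hγ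
  exact ⟨scal I c, hs (scal_mem c), scal_comm _ _, N9.On.scal c, c, N9.On.scal c⟩

theorem nz {J : Matrix I ι F} {J' : Matrix I κ F} (ex : ∀ g : GL I F, g * jj F = jj F * g → ∃ δ, On J' g δ) :
    NzG (Gr J G) (Kn J J' G) := by
  rintro _ ⟨a, ha, ca, oa⟩ _ ⟨b, hb, cb, ob, d, od⟩
  obtain ⟨δ, oδ⟩ := ex a ca
  refine ⟨a * b * a⁻¹, mul_mem (mul_mem ha hb) (inv_mem ha),
    Commute.mul_left (Commute.mul_left ca cb) (Commute.inv_left ca), (oa.mul ob).mul oa.inv, d, ?_⟩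
  have := (oδ.mul od).mul oδ.inv
  rwa [← scal_comm, mul_inv_cancel_right] at this

theorem pm_eq {a b d : Fˣ} (ha : a = d ∨ a = -d) (hb : b = d ∨ b = -d) (h : a ^ 11 = b ^ 11) : a = b := by
  have k : ∀ c : Fˣ, c = d ∨ c = -d → c ^ 11 = c * d ^ 10 := by
    rintro c (rfl | rfl)
    · exact pow_succ' _ _
    · rw [pow_succ', Even.neg_pow (by decide)]
  rw [k a ha, k b hb] at h
  exact mul_right_cancel h

theorem pow11 {t : ι → Fˣ} (h : (dg t : GL ι F) ^ 11 ∈ scalars ι F) (i k : ι) : t i ^ 11 = t k ^ 11 := by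
  rw [← map_pow] at h
  exact dg_mem_scalars.1 h i k

theorem sm_eq (k : Fin 5) : sm k = sp k.succ := rfl

theorem sm_ne : ∀ k : Fin 5, sm k ≠ 0 := by decide

theorem sp_eq : ∀ k : Fin 6, sp k = 0 ↔ k = 0 := by decide

/-- An element diagonal on both eigenspaces has the same entries up to sign. -/
theorem sgn (h : St p ζ w G) (hg : g ∈ G) (c : g * jj F = jj F * g) {t : Fin 5 → Fˣ} {u : Fin 6 → Fˣ}
    (om : On (Jm F) g (dg t)) (op : On (Jp F) g (dg u)) (k : Fin 5) : t k = u k.succ ∨ t k = -u k.succ := by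
  have ca : g * aa ζ = aa ζ * g := by
    refine h.toFd.ext (om.mul on_a_m) ?_ (op.mul on_a_p) ?_
    · rw [ad, dg_comm]; exact on_a_m.mul om
    · rw [ad, dg_comm]; exact on_a_p.mul op
  obtain ⟨s, π, hπ, rfl⟩ := h.blk hg ca
  obtain ⟨-, o1, o2⟩ := on_mono hπ c
  have e1 := congrFun (dg_injective (om.unique Km_Jm o1)) k
  have e2 := congrFun (dg_injective (op.unique Kp_Jp o2)) k.succ
  rw [e1, e2, ← sm_eq]
  split_ifs
  · exact Or.inl rfl
  · exact Or.inr rfl

theorem hm_j (η : Fˣ) : hm (0 : I) η * jj F = jj F * hm 0 η :=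
  comm_jj.2 fun i k => by simp [hm, dg_apply, Pi.mulSingle_apply]

theorem on_hm (η : Fˣ) : On (Jm F) (hm (0 : I) η) 1 ∧ On (Jp F) (hm (0 : I) η) (hm 0 η) := by
  have c : dg (Pi.mulSingle (0 : I) η) * pm F 1 * jj F = jj F * (dg (Pi.mulSingle (0 : I) η) * pm F 1) := by
    rw [map_one, mul_one]; exact hm_j η
  obtain ⟨-, o1, o2⟩ := on_mono (fun _ => Or.inl rfl) c
  rw [map_one, mul_one] at o1 o2
  have e1 : (fun k => if (1 : Equiv.Perm I) (sm k) = sm k then (Pi.mulSingle (0 : I) η : I → Fˣ) (sm k)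
      else -(Pi.mulSingle (0 : I) η : I → Fˣ) (sm k)) = 1 := by
    funext k
    simp [sm_ne]
  have e2 : (fun k => (Pi.mulSingle (0 : I) η : I → Fˣ) (sp k)) = Pi.mulSingle (0 : Fin 6) η := by
    funext k
    simp [Pi.mulSingle_apply, sp_eq]
  rw [e1, map_one] at o1
  rw [e2] at o2
  exact ⟨o1, o2⟩

end Ker

open Ker

theorem St.kp (h : St p ζ w G) (hg : g ∈ G) (c : g * jj F = jj F * g) {d : Fˣ} (o : On (Jp F) g (scal (Fin 6) d)) : S0 g := by
  obtain ⟨u, -, hw, -⟩ := h.toCl.wh_m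
  have le : Kn (Jm F) (Jp F) G ≤ scalars (Fin 5) F := by
    refine hw.norm (sc_le h.sc) (nz fun _ => exists_p) ?_
    rintro t ⟨a, ha, ca, oa, b, ob⟩ h11
    rw [← dg_const] at ob
    exact dg_mem_scalars.2 fun i k => pm_eq (sgn h ha ca oa ob i) (sgn h ha ca oa ob k) (pow11 h11 i k)
  obtain ⟨γ, oγ⟩ := exists_m c
  obtain ⟨b, rfl⟩ := mem_scalars_iff'.1 (le ⟨g, hg, c, oγ, d, o⟩)
  have s := sgn h hg c (t := fun _ => b) (u := fun _ => d) (by rwa [dg_const]) (by rwa [dg_const]) 0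
  rcases s with s | s
  · subst s
    exact Or.inl (mem_scalars_iff'.2 ⟨b, h.toFd.ext oγ (N9.On.scal b) o (N9.On.scal b)⟩)
  · refine Or.inr (mem_scalars_iff'.2 ⟨d, h.toFd.ext (oγ.mul on_j_m) ?_ (o.mul on_j_p) ?_⟩)
    · rw [← scal_mul, s, neg_mul_neg, mul_one]; exact N9.On.scal d
    · rw [mul_one]; exact N9.On.scal d

theorem St.km (h : St p ζ w G) (hg : g ∈ G) (c : g * jj F = jj F * g) {d : Fˣ} (o : On (Jm F) g (scal (Fin 5) d)) : S0 g := by
  obtain ⟨u, -, hw⟩ := h.toCl.wh_p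
  have le : Kn (Jp F) (Jm F) G ≤ scalars (Fin 6) F := by
    refine hw.norm (sc_le h.sc) (nz fun _ => exists_m) ?_
    rintro t ⟨a, ha, ca, oa, b, ob⟩ h11
    have s : ∀ k : Fin 5, t k.succ = b ∨ t k.succ = -b := fun k =>
      (sgn h ha ca (t := fun _ => b) (by rwa [dg_const]) oa k).imp Eq.symm fun x => by rw [x, neg_neg]
    have e : ∀ k : Fin 5, t k.succ = t 1 := fun k => pm_eq (s k) (s 0) (pow11 h11 _ _)
    have et : (dg t : GL (Fin 6) F) = scal (Fin 6) (t 1) * hm 0 (t 0 / t 1) := by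
      rw [← dg_const, hm, ← map_mul]
      congr 1
      funext k
      refine Fin.cases ?_ (fun k => ?_) k
      · simp
      · simp [e]
    have o1 := (N9.On.scal (J := Jm F) (t 1)).mul (on_hm (t 0 / t 1)).1
    have o2 := (N9.On.scal (J := Jp F) (t 1)).mul (on_hm (t 0 / t 1)).2
    rw [mul_one] at o1
    rw [← et] at o2
    have m : scal I (t 1) * hm (0 : I) (t 0 / t 1) ∈ G := by
      rcases s 0 with s0 | s0
      · rw [← h.toFd.ext ob (by rwa [← s0]) oa o2]; exact ha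
      · have o3 := ob.mul on_j_m
        have o4 := oa.mul on_j_p
        rw [← scal_mul, mul_neg_one, ← s0] at o3
        rw [mul_one] at o4
        rw [← h.toFd.ext o3 o1 o4 o2]; exact mul_mem ha h.toCl.j
    have η := h.hh (by rw [div_pow, pow11 h11 0 1, div_self']) ((mul_mem_cancel_left (h.sc (scal_mem _))).1 m)
    rw [et, η, hm, Pi.mulSingle_one, map_one, mul_one]
    exact scal_mem _
  obtain ⟨γ, oγ⟩ := exists_p c
  obtain ⟨b, rfl⟩ := mem_scalars_iff'.1 (le ⟨g, hg, c, oγ, d, o⟩)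
  exact h.kp hg c oγ

theorem St.nohom (h : St p ζ w G) {k : I} {η : Fˣ} (hk : hm k η ∈ G) : η = 1 := by
  rcases h.km (h.toCl.hm_mem hk 0) (hm_j η) (d := 1) (by rw [scal_one]; exact (on_hm η).1) with s | s
  · simpa [Pi.mulSingle_apply] using dg_mem_scalars.1 s 0 1
  · obtain ⟨c, hc⟩ := mem_scalars_iff'.1 s
    have := congrArg (fun g : GL I F => (g : Matrix I I F) 1 (-1)) hc
    simp only [hm, jj, dg_pm_apply, Equiv.neg_apply, neg_neg, if_true, coe_scal, Matrix.smul_apply,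
      one_apply_ne (show (1 : I) ≠ -1 by decide), smul_zero] at this
    exact absurd this (Units.ne_zero _)

theorem St.tor (h : St p ζ w G) : D11 G := fun t ht => by
  rw [← map_pow]
  have e : ∀ i, t i ^ 11 = ∏ l, t l := fun i => div_eq_one.1 (h.nohom (h.toCl.th ht i 0))
  exact dg_mem_scalars.2 fun i k => (e i).trans (e k).symm

end Cfsg.Agent.XP
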